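import Mathlib
import Cfsg.Agent.H604.AcdSimple
import Cfsg.Agent.H604.AcdCaseA
import Cfsg.Agent.H604.AcdCaseB
import Cfsg.Agent.Lib.SubnormalJoin
import Cfsg.Agent.SolvableStructure.MinimalNormal

/-!
# Groups all of whose proper subgroups have average degree at most two
-/

set_option autoImplicit false
open Cfsg

namespace Cfsg.Agent.H604.AcdMain

open Cfsg.Agent.H604.Acd Cfsg.Agent.H604.AcdTools
open Subgroup

universe u v

/-- The conclusion. -/
def Res (G : Type u) [Group G] : Prop :=
  Nonempty (G ≃* Matrix.ProjectiveSpecialLinearGroup (Fin 2) (ZMod 7)) ∨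
    (∃ (F : Type) (_ : Field F) (_ : Fintype F) (q : ℕ), q.Prime ∧ Fintype.card F = 2 ^ q ∧
      Nonempty (G ≃* Matrix.ProjectiveSpecialLinearGroup (Fin 2) F)) ∨
    Nonempty (G ≃* Matrix.SpecialLinearGroup (Fin 2) (ZMod 5))

theorem perfect {G : Type u} [Group G] [Finite G] (hyp : Hyp G) (hG : ¬ Group.IsSolvable G) :
    commutator G = ⊤ := by
  by_contra h
  apply hG
  have h1 : Group.IsSolvable (commutator G) := hyp.solvable _ h
  have h3 : Group.IsSolvable (G ⧸ commutator G) := Group.isSolvable_of_comm
    (fun a b => (inferInstance : IsMulCommutative (Abelianization G)).is_comm.comm a b)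
  exact (Group.isSolvable_iff_subgroup_quotient (commutator G)).2 ⟨h1, h3⟩

theorem main (n : ℕ) : ∀ (G : Type u) [Group G] [Finite G], Nat.card G = n →
    ¬ Group.IsSolvable G → Hyp G → Res G := by
  induction n using Nat.strong_induction_on with
  | _ n ih =>
    intro G _ _ hn hG hyp
    have hperf := perfect hyp hG
    by_cases hs : IsSimpleGroup G
    · rcases AcdSimple.main hs hG hyp with h | h
      · exact Or.inl h
      · exact Or.inr (Or.inl h)
    have hnt : Nontrivial G := by
      by_contra h
      rw [not_nontrivial_iff_subsingleton] at h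
      exact hG inferInstance
    obtain ⟨N, hNn, hN1, hmin⟩ := Lib.SubnormalJoin.exists_minimal_normal G
    have hNt : N ≠ ⊤ := by
      intro h
      apply hs
      refine { eq_bot_or_eq_top_of_normal := fun M hM => ?_ }
      rcases hmin M hM (by rw [h]; exact le_top) with h1 | h1
      · exact Or.inl h1
      · exact Or.inr (h1.trans h)
    have hNs : Group.IsSolvable N := hyp.solvable N hNt
    have hNnt : Nontrivial N := (nontrivial_iff_ne_bot N).2 hN1
    have hcomm : ∀ a ∈ N, ∀ b ∈ N, a * b = b * a := by
      have h1 : (commutator N).map N.subtype = ⁅N, N⁆ := map_subtype_commutator N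
      have hcn : (⁅N, N⁆ : Subgroup G).Normal := inferInstance
      have hle : (⁅N, N⁆ : Subgroup G) ≤ N := h1 ▸ map_subtype_le _
      rcases hmin ⁅N, N⁆ hcn hle with h2 | h2
      · intro a ha b hb
        rw [commutator_eq_bot_iff_le_centralizer] at h2
        exact (mem_centralizer_iff.1 (h2 ha) b hb).symm
      · exfalso
        have h3 := Group.IsSolvable.commutator_lt_top_of_nontrivial N
        apply h3.ne
        rw [h2] at h1
        apply Subgroup.map_injective N.subtype_injective
        rw [h1, ← MonoidHom.range_eq_map, range_subtype]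
    obtain ⟨r, hr, hexp⟩ := SolvableStructure.MinimalNormal.exists_prime_pow_eq_one N hN1 hmin hcomm
    -- the quotient
    have hQs : ¬ Group.IsSolvable (G ⧸ N) := fun h =>
      hG ((Group.isSolvable_iff_subgroup_quotient N).2 ⟨hNs, h⟩)
    have hQhyp : Hyp (G ⧸ N) := hyp.of_surjective (QuotientGroup.mk' N)
      (QuotientGroup.mk'_surjective N)
    have hlt : Nat.card (G ⧸ N) < n := by
      rw [← hn, ← index_eq_card, ← card_mul_index N]
      have h1 : 1 < Nat.card N := Finite.one_lt_card
      have h2 : 0 < N.index := Nat.pos_of_ne_zero index_ne_zero_of_finite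
      nlinarith
    have hres := ih _ hlt (G ⧸ N) rfl hQs hQhyp
    -- the kernel of `e ∘ mk'`
    have hker : ∀ {K : Type} [Group K] (e : G ⧸ N ≃* K),
        (e.toMonoidHom.comp (QuotientGroup.mk' N)).ker = N := by
      intro K _ e
      ext x
      rw [MonoidHom.mem_ker]
      constructor
      · intro h
        have h1 : QuotientGroup.mk' N x = 1 := (map_eq_one_iff e e.injective).1 h
        exact (QuotientGroup.eq_one_iff x).1 h1
      · intro h
        have h1 : QuotientGroup.mk' N x = 1 := (QuotientGroup.eq_one_iff x).2 h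
        show e (QuotientGroup.mk' N x) = 1
        rw [h1, map_one]
    have hsurj : ∀ {K : Type} [Group K] (e : G ⧸ N ≃* K),
        Function.Surjective (e.toMonoidHom.comp (QuotientGroup.mk' N)) := fun e =>
      e.surjective.comp (QuotientGroup.mk'_surjective N)
    by_cases hZ : N ≤ center G
    · -- the central case
      have hp : (Nat.card N).Prime := by
        obtain ⟨⟨x, hx⟩, hx1⟩ := exists_ne (1 : N)
        have hx1' : x ≠ 1 := fun h => hx1 (Subtype.ext h)
        have hzn : (zpowers x).Normal := by
          refine ⟨fun y hy g => ?_⟩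
          have hyZ : y ∈ center G := hZ ((zpowers_le.2 hx) hy)
          rw [mem_center_iff.1 hyZ g, mul_inv_cancel_right]
          exact hy
        rcases hmin (zpowers x) hzn (zpowers_le.2 hx) with h | h
        · exact absurd (zpowers_eq_bot.1 h) hx1'
        · rw [← h, Nat.card_zpowers]
          have hfr : Fact r.Prime := ⟨hr⟩
          rw [orderOf_eq_prime (hexp x hx) hx1']
          exact hr
      rcases hres with ⟨⟨e⟩⟩ | ⟨F, _, _, q, hq, hF, ⟨e⟩⟩ | ⟨⟨e⟩⟩
      · exact (AcdCaseA.psl7 hyp hperf (e.toMonoidHom.comp (QuotientGroup.mk' N)) (hsurj e)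
          (by rw [hker]; exact hZ) (by rw [hker]; exact hp)).elim
      · exact Or.inr (Or.inr (AcdCaseA.even hperf hq.two_le hF
          (e.toMonoidHom.comp (QuotientGroup.mk' N)) (hsurj e)
          (by rw [hker]; exact hZ) (by rw [hker]; exact hp)))
      · exact (AcdCaseA.sl5 hperf (e.toMonoidHom.comp (QuotientGroup.mk' N)) (hsurj e)
          (by rw [hker]; exact hZ) (by rw [hker]; exact hp)).elim
    · -- the noncentral case
      exfalso
      rcases hres with ⟨⟨e⟩⟩ | ⟨F, _, _, q, hq, hF, ⟨e⟩⟩ | ⟨⟨e⟩⟩
      · have hf7 : Fact (Nat.Prime 7) := ⟨by norm_num⟩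
        have hs7 : IsSimpleGroup (Matrix.ProjectiveSpecialLinearGroup (Fin 2) (ZMod 7)) :=
          Matrix.ProjectiveSpecialLinearGroup.rank_two_simple (by rw [Nat.card_zmod]; norm_num)
        exact AcdCaseB.psl7 (AcdCaseB.setup hyp hG (e.toMonoidHom.comp (QuotientGroup.mk' N))
          (hsurj e) hr (by rw [hker]; exact hcomm) (by rw [hker]; exact hexp)
          (by rw [hker]; exact hZ) (AcdCaseB.pn_simple hs7))
      · have hsF : IsSimpleGroup (Matrix.ProjectiveSpecialLinearGroup (Fin 2) F) :=
          Matrix.ProjectiveSpecialLinearGroup.rank_two_simple (by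
            rw [Nat.card_eq_fintype_card, hF]
            calc 4 = 2 ^ 2 := by norm_num
              _ ≤ 2 ^ q := Nat.pow_le_pow_right (by norm_num) hq.two_le)
        exact AcdCaseB.even hq hF (AcdCaseB.setup hyp hG
          (e.toMonoidHom.comp (QuotientGroup.mk' N))
          (hsurj e) hr (by rw [hker]; exact hcomm) (by rw [hker]; exact hexp)
          (by rw [hker]; exact hZ) (AcdCaseB.pn_simple hsF))
      · have hQp := perfect hQhyp hQs
        have hp5 : commutator (Matrix.SpecialLinearGroup (Fin 2) (ZMod 5)) = ⊤ := by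
          have h1 : (commutator (G ⧸ N)).map e.toMonoidHom =
              commutator (Matrix.SpecialLinearGroup (Fin 2) (ZMod 5)) := by
            rw [_root_.commutator_def, map_commutator, ← MonoidHom.range_eq_map,
              MonoidHom.range_eq_top.2 e.surjective, _root_.commutator_def]
          rw [← h1, hQp, ← MonoidHom.range_eq_map, MonoidHom.range_eq_top.2 e.surjective]
        exact AcdCaseB.sl5 (AcdCaseB.setup hyp hG (e.toMonoidHom.comp (QuotientGroup.mk' N))
          (hsurj e) hr (by rw [hker]; exact hcomm) (by rw [hker]; exact hexp)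
          (by rw [hker]; exact hZ) (AcdCaseB.pn_sl5 hp5))

end Cfsg.Agent.H604.AcdMain
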