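import Mathlib

/-!
# A Frobenius group of order `39` in `PSL₃(3)`
-/

set_option autoImplicit false

namespace Cfsg.Agent.H604.AcdPsl3

open Matrix

/-- An element of order `13`. -/
def A : SpecialLinearGroup (Fin 3) (ZMod 3) := ⟨!![0, 2, 0; 0, 1, 2; 1, 0, 1], by decide⟩
/-- `A²` -/
def A2 : SpecialLinearGroup (Fin 3) (ZMod 3) := ⟨!![0, 2, 1; 2, 1, 1; 1, 2, 1], by decide⟩
/-- `A³` -/
def A3 : SpecialLinearGroup (Fin 3) (ZMod 3) := ⟨!![1, 2, 2; 1, 2, 0; 1, 1, 2], by decide⟩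
/-- `A⁶` -/
def A6 : SpecialLinearGroup (Fin 3) (ZMod 3) := ⟨!![2, 2, 0; 0, 0, 2; 1, 0, 0], by decide⟩
/-- `A¹²` -/
def A12 : SpecialLinearGroup (Fin 3) (ZMod 3) := ⟨!![1, 1, 1; 2, 0, 0; 2, 2, 0], by decide⟩
/-- An element of order `3`. -/
def B : SpecialLinearGroup (Fin 3) (ZMod 3) := ⟨!![1, 2, 1; 0, 1, 1; 0, 0, 1], by decide⟩
/-- `B²` -/
def B2 : SpecialLinearGroup (Fin 3) (ZMod 3) := ⟨!![1, 1, 1; 0, 1, 2; 0, 0, 1], by decide⟩

theorem a2 : A * A = A2 := by apply Subtype.ext; decide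
theorem a3 : A * A2 = A3 := by apply Subtype.ext; decide
theorem a6 : A3 * A3 = A6 := by apply Subtype.ext; decide
theorem a12 : A6 * A6 = A12 := by apply Subtype.ext; decide
theorem a13 : A * A12 = 1 := by apply Subtype.ext; decide
theorem b2 : B * B = B2 := by apply Subtype.ext; decide
theorem b3 : B * B2 = 1 := by apply Subtype.ext; decide
theorem bab : B * A * B2 = A3 := by apply Subtype.ext; decide

theorem pow_three : A ^ 3 = A3 := by rw [pow_succ', sq, a2, a3]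
theorem pow_thirteen : A ^ 13 = 1 := by
  have : A ^ 13 = A * ((A ^ 3) * (A ^ 3) * ((A ^ 3) * (A ^ 3))) := by group
  rw [this, pow_three, a6, a12, a13]
theorem B_pow : B ^ 3 = 1 := by rw [pow_succ', sq, b2, b3]
theorem conj : B * A * B⁻¹ = A ^ 3 := by
  have h : B⁻¹ = B2 := inv_eq_of_mul_eq_one_right b3
  rw [h, bab, pow_three]

theorem not_mem : A ∉ Subgroup.center (SpecialLinearGroup (Fin 3) (ZMod 3)) := by
  rw [Matrix.SpecialLinearGroup.mem_center_iff]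
  rintro ⟨r, -, hr⟩
  have h : (Matrix.scalar (Fin 3) r) 0 1 = A 0 1 := by rw [hr]
  have h2 : (Matrix.scalar (Fin 3) r) 0 1 = 0 := by simp
  rw [h2] at h
  revert h
  decide

/-- A Frobenius group of order `39`. -/
theorem exists_frob : ∃ a b : ProjectiveSpecialLinearGroup (Fin 3) (ZMod 3),
    a ^ 13 = 1 ∧ a ≠ 1 ∧ b ^ 3 = 1 ∧ b * a * b⁻¹ = a ^ 3 := by
  refine ⟨QuotientGroup.mk' _ A, QuotientGroup.mk' _ B, ?_, ?_, ?_, ?_⟩
  · rw [← map_pow, pow_thirteen, map_one]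
  · intro h
    exact not_mem ((QuotientGroup.eq_one_iff A).1 h)
  · rw [← map_pow, B_pow, map_one]
  · rw [← map_mul, ← map_inv, ← map_mul, conj, map_pow]

end Cfsg.Agent.H604.AcdPsl3
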