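import Mathlib
import Cfsg.Agent.H604.Acd
import Cfsg.Agent.H604.AcdGrp
import Cfsg.Agent.H604.AcdMin
import Cfsg.Agent.H604.AcdBorel

/-!
# Groups all of whose proper subgroups satisfy `dd ≤ 0`
-/

set_option autoImplicit false
open Cfsg

namespace Cfsg.Agent.H604.AcdTools

open Cfsg.Agent.H604.Acd
open Subgroup

universe u v

/-- The hypothesis of S4753. -/
def Hyp (G : Type u) [Group G] : Prop := ∀ H : Subgroup G, H ≠ ⊤ → dd H ≤ 0

theorem Hyp.congr {G : Type u} {K : Type v} [Group G] [Group K] (e : G ≃* K) (h : Hyp G) :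
    Hyp K := by
  intro H hH
  have h1 : H.map e.symm.toMonoidHom ≠ ⊤ := by
    intro h0
    apply hH
    have h2 := congrArg (fun L : Subgroup G => L.map e.toMonoidHom) h0
    simp only [Subgroup.map_map] at h2
    have h3 : e.toMonoidHom.comp e.symm.toMonoidHom = MonoidHom.id K := by ext x; simp
    rw [h3, Subgroup.map_id, ← MonoidHom.range_eq_map, MonoidHom.range_eq_top.2 e.surjective] at h2
    exact h2
  rw [dd_congr (e.symm.subgroupMap H)]
  exact h _ h1

theorem dd_of_surjective {G : Type u} {K : Type u} [Group G] [Finite G] [Group K] (f : G →* K)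
    (hf : Function.Surjective f) (h : dd G ≤ 0) : dd K ≤ 0 := by
  rw [← dd_congr (QuotientGroup.quotientKerEquivOfSurjective f hf)]
  exact dd_quotient f.ker h

theorem Hyp.of_surjective {G : Type u} {K : Type u} [Group G] [Finite G] [Group K] (f : G →* K)
    (hf : Function.Surjective f) (h : Hyp G) : Hyp K := by
  intro H hH
  have h1 : H.comap f ≠ ⊤ := by
    intro h0
    apply hH
    rw [← Subgroup.map_comap_eq_self_of_surjective hf H, h0, ← MonoidHom.range_eq_map,
      MonoidHom.range_eq_top.2 hf]
  exact dd_of_surjective (f.subgroupComap H) (f.subgroupComap_surjective_of_surjective H hf)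
    (h _ h1)

/-- Proper subgroups are solvable. -/
theorem Hyp.solvable {G : Type u} [Group G] [Finite G] (h : Hyp G) (H : Subgroup G)
    (hH : H ≠ ⊤) : Group.IsSolvable H := AcdMin.isSolvable h _ H rfl hH

/-- A self-centralizing cyclic subgroup `U` with `|N(U) : U| = 4`. -/
theorem excl_four {K : Type u} [Group K] [Finite K] (hyp : Hyp K) (hK : ¬ Group.IsSolvable K)
    (U : Subgroup K) (hcyc : IsCyclic U) (hC : ∀ u ∈ U, u ≠ 1 → centralizer {u} = U) {j : ℕ}
    (hj : Nat.card U = j * 4 + 1) (h3 : 3 ≤ j)
    (hN : Nat.card (normalizer (U : Set K)) = 4 * Nat.card U) : False := by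
  set N := normalizer (U : Set K) with hNdef
  have hUN : U ≤ N := le_normalizer
  set U' := U.subgroupOf N with hU'
  have hUn : U'.Normal := normal_subgroupOf_of_le_normalizer le_rfl
  have hcard : Nat.card U' = Nat.card U := Nat.card_congr (subgroupOfEquivOfLe hUN).toEquiv
  have hUc : ∀ a ∈ U, ∀ b ∈ U, a * b = b * a := fun a ha b hb =>
    congrArg Subtype.val ((IsCyclic.isMulCommutative (α := U)).is_comm.comm ⟨a, ha⟩ ⟨b, hb⟩)
  have hi : U'.index = 4 := by
    have h1 := card_mul_index U'
    rw [hcard, hN, mul_comm 4] at h1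
    exact Nat.eq_of_mul_eq_mul_left Nat.card_pos h1
  have hab : ∀ a b : N ⧸ U', a * b = b * a := by
    have : Fact (Nat.Prime 2) := ⟨Nat.prime_two⟩
    have h1 : Nat.card (N ⧸ U') = 2 ^ 2 := by rw [← index_eq_card, hi]; rfl
    exact (IsPGroup.isMulCommutative_of_card_eq_prime_sq h1).is_comm.comm
  have hcomm : commutator N ≤ U' := by
    rw [_root_.commutator_def, commutator_le]
    intro a _ b _
    rw [← QuotientGroup.ker_mk' U', MonoidHom.mem_ker, map_commutatorElement,
      commutatorElement_eq_one_iff_mul_comm]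
    exact hab _ _
  have hUc' : ∀ a ∈ U', ∀ b ∈ U', a * b = b * a := fun a ha b hb =>
    Subtype.ext (hUc a ha b hb)
  have hdd := frobenius U' hUc' (fun u hu hu1 g hg => by
    have h1 := hC (u : K) hu (fun h0 => hu1 (Subtype.ext h0))
    have h2 : (g : K) ∈ centralizer {(u : K)} := by
      rw [mem_centralizer_singleton_iff]
      exact congrArg Subtype.val hg
    rw [h1] at h2
    exact h2) hcomm hi (by norm_num) (k := j) (by rw [hcard, hj])
  by_cases htop : N = ⊤
  · apply hK
    have h1 : Group.IsSolvable U' := Group.isSolvable_of_comm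
      (fun a b => Subtype.ext (hUc' a a.2 b b.2))
    have h2 : Group.IsSolvable (N ⧸ U') := Group.isSolvable_of_comm hab
    have h3 : Group.IsSolvable N := (Group.isSolvable_iff_subgroup_quotient U').2 ⟨h1, h2⟩
    rw [htop] at h3
    exact Group.isSolvable_of_surjective (f := (topEquiv (G := K)).toMonoidHom)
      (MulEquiv.surjective _)
  · have h1 := hyp N htop
    rw [hdd] at h1
    push_cast at h1
    omega

/-- There is no Frobenius group of order `39`. -/
theorem excl_thirteen {K : Type u} [Group K] [Finite K] (hyp : Hyp K) (hK : ¬ Group.IsSolvable K)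
    {a b : K} (ha : a ^ 13 = 1) (ha1 : a ≠ 1) (hb : b ^ 3 = 1) (hab : b * a * b⁻¹ = a ^ 3) :
    False := by
  have : Fact (Nat.Prime 13) := ⟨by norm_num⟩
  have hord : orderOf a = 13 := orderOf_eq_prime ha ha1
  set A := zpowers a with hA
  have hAc : Nat.card A = 13 := by rw [hA, Nat.card_zpowers, hord]
  have hcomm : ∀ x ∈ A, ∀ y ∈ A, x * y = y * x := by
    rintro _ ⟨i, rfl⟩ _ ⟨j, rfl⟩
    exact ((Commute.refl a).zpow_zpow i j)
  have hconj : ∀ x ∈ A, b * x * b⁻¹ = x ^ 3 := by
    rintro _ ⟨i, rfl⟩
    show b * a ^ i * b⁻¹ = (a ^ i) ^ 3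
    rw [← conj_zpow, hab, ← zpow_natCast, ← zpow_mul, ← zpow_natCast, ← zpow_mul, mul_comm]
  have hfix : ∀ x ∈ A, b * x = x * b → x = 1 := by
    intro x hx h
    have h1 := hconj x hx
    rw [h, mul_inv_cancel_right] at h1
    have h2 : x ^ 2 = 1 := by
      have : x * x ^ 2 = x * 1 := by rw [mul_one, ← pow_succ', ← h1]
      exact mul_left_cancel this
    have h13 : x ^ 13 = 1 := by
      have := pow_card_eq_one' (x := (⟨x, hx⟩ : A))
      rw [hAc] at this
      exact congrArg Subtype.val this
    have : x ^ 13 = (x ^ 2) ^ 6 * x := by rw [← pow_mul, ← pow_succ]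
    rw [h2, one_pow, one_mul, h13] at this
    exact this.symm
  have hbA : b ∉ A := by
    intro hbA
    have h1 := hfix a (mem_zpowers a) (hcomm b hbA a (mem_zpowers a))
    exact ha1 h1
  have hrel : (centralizer ({b} : Set K)).relIndex A = 13 := by
    have h1 : (centralizer ({b} : Set K)).subgroupOf A = ⊥ := by
      rw [eq_bot_iff]
      intro x hx
      rw [mem_subgroupOf, mem_centralizer_singleton_iff] at hx
      rw [mem_bot]
      exact Subtype.ext (hfix x x.2 hx.symm)
    rw [relIndex, h1, index_bot, hAc]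
  by_cases htop : A ⊔ zpowers b = ⊤
  · -- `A` is normal
    apply hK
    have hn : A.Normal := by
      rw [← normalizer_eq_top_iff, ← top_le_iff, ← htop, sup_le_iff]
      refine ⟨le_normalizer, ?_⟩
      rw [zpowers_le]
      have hsub : A.map (MulAut.conj b).toMonoidHom ≤ A := by
        rintro _ ⟨x, hx, rfl⟩
        show b * x * b⁻¹ ∈ A
        rw [hconj x hx]
        exact pow_mem hx 3
      have hcard : Nat.card (A.map (MulAut.conj b).toMonoidHom) = Nat.card A :=
        Nat.card_congr (A.equivMapOfInjective _ (MulAut.conj b).injective).toEquiv.symm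
      have heq : A.map (MulAut.conj b).toMonoidHom = A :=
        Subgroup.eq_of_le_of_card_ge hsub hcard.ge
      rw [mem_normalizer_iff_map_conj_eq]
      exact heq
    have h1 : Group.IsSolvable A := Group.isSolvable_of_comm
      (fun x y => Subtype.ext (hcomm x x.2 y y.2))
    have h2 : Group.IsSolvable (K ⧸ A) := by
      have h3 : (zpowers b).map (QuotientGroup.mk' A) = ⊤ := by
        have h4 := congrArg (Subgroup.map (QuotientGroup.mk' A)) htop
        rw [Subgroup.map_sup, (Subgroup.map_eq_bot_iff A).2 (QuotientGroup.ker_mk' A).ge,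
          bot_sup_eq, ← MonoidHom.range_eq_map, MonoidHom.range_eq_top.2
          (QuotientGroup.mk'_surjective A)] at h4
        exact h4
      apply Group.isSolvable_of_comm
      intro x y
      have hx : x ∈ (zpowers b).map (QuotientGroup.mk' A) := by rw [h3]; exact mem_top x
      have hy : y ∈ (zpowers b).map (QuotientGroup.mk' A) := by rw [h3]; exact mem_top y
      obtain ⟨_, ⟨i, rfl⟩, rfl⟩ := hx
      obtain ⟨_, ⟨j, rfl⟩, rfl⟩ := hy
      rw [← map_mul, ← map_mul]
      congr 1
      exact ((Commute.refl b).zpow_zpow i j)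
    exact (Group.isSolvable_iff_subgroup_quotient A).2 ⟨h1, h2⟩
  · have h1 := AcdGrp.gen_bound A hcomm b (fun x hx => by rw [hconj x hx]; exact pow_mem hx 3)
      Nat.prime_three le_rfl (by rw [hb]; exact one_mem A) hbA (hyp _ htop)
    rw [hrel] at h1
    omega

end Cfsg.Agent.H604.AcdTools
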