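import Cfsg.Agent.H412.Tc.HeisDefs

/-!
# S3621: agreement on pairs of elements of `B / Kˣ`, `r` odd (helper604)
-/

set_option autoImplicit false
set_option linter.unusedSectionVars false

namespace Cfsg.Agent.H604.TcEncOdd

open Cfsg.Agent.H412.Tc

universe u

section Gen

variable {K V : Type*} [Field K] [AddCommGroup V] [Module K V]

theorem semi_scal {g : GV V} (h : Semi K g) (c : Kˣ) : ∃ d : Kˣ, g * scal K V c = scal K V d * g := by
  obtain ⟨σ, hσ⟩ := h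
  refine ⟨Units.map (σ : K →* K) c, GV_ext fun v => ?_⟩
  rw [mul_smul, mul_smul, scal_smul, scal_smul, hσ]
  rfl

theorem semi_scal_conj {g : GV V} (h : Semi K g) (c : Kˣ) : ∃ d : Kˣ, g * scal K V c * g⁻¹ = scal K V d := by
  obtain ⟨d, hd⟩ := semi_scal h c
  exact ⟨d, by rw [hd, mul_inv_cancel_right]⟩

theorem eig_of_lin {b : GV V} {v : V} {c : Kˣ} {x : GV V} (hx : x • v = v) (i : ℕ) (h : b = scal K V c * x ^ i) :
    b • v = (c : K) • v := by
  have h1 : x ^ i • v = v := by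
    clear h
    induction i with
    | zero => simp
    | succ n ih => rw [pow_succ, mul_smul, hx, ih]
  rw [h, mul_smul, h1, scal_smul]

theorem pow_fix {x : GV V} {v : V} (hx : x • v = v) (i : ℕ) : x ^ i • v = v := by
  induction i with
  | zero => simp
  | succ n ih => rw [pow_succ, mul_smul, hx, ih]

theorem smul_cancel {v : V} (hv : v ≠ 0) {c d : Kˣ} (h : (c : K) • v = (d : K) • v) : c = d :=
  Units.ext (smul_left_injective K hv h)

theorem Pr_add {r : ℕ} {y : GV V} (ζ : Kˣ) (u v : V) : Pr r y ζ (u + v) = Pr r y ζ u + Pr r y ζ v := by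
  unfold Pr
  rw [← Finset.sum_add_distrib]
  refine Finset.sum_congr rfl fun j _ => ?_
  rw [smul_add, smul_add]

theorem pow_two_ne {r : ℕ} (hr : r.Prime) (hr2 : r ≠ 2) {ω : Kˣ} (hω : ω ≠ 1) (hωr : ω ^ r = 1) : ω ^ 2 ≠ 1 := by
  intro h
  have h1 : orderOf ω ∣ r := orderOf_dvd_of_pow_eq_one hωr
  have h2 : orderOf ω ∣ 2 := orderOf_dvd_of_pow_eq_one h
  have h3 : orderOf ω ≠ 1 := fun h => hω (orderOf_eq_one_iff.1 h)
  have h4 : orderOf ω = r := ((Nat.dvd_prime hr).1 h1).resolve_left h3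
  have h5 : orderOf ω = 2 := ((Nat.dvd_prime Nat.prime_two).1 h2).resolve_left h3
  omega

/-- comparison of components -/
theorem components {r : ℕ} (hr : r.Prime) (hr2 : r ≠ 2) {x : GV V} (hx : Lin K x) {ω ζ : Kˣ} (hω : ω ≠ 1)
    (hωr : ω ^ r = 1) (hζ : ζ ≠ 1) (hζr : ζ ^ r = 1) {u1 u2 u3 w1 w2 w3 : V}
    (h1 : x • u1 = u1) (h2 : x • u2 = (ω : K) • u2) (h3 : x • u3 = ((ω ^ 2 : Kˣ) : K) • u3)
    (k1 : x • w1 = w1) (k2 : x • w2 = (ζ : K) • w2) (k3 : x • w3 = ((ζ ^ 2 : Kˣ) : K) • w3)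
    (hu2 : u2 ≠ 0) (hu3 : u3 ≠ 0) (h : w1 + w2 + w3 = u1 + u2 + u3) :
    w1 = u1 ∧ ((w2 = u2 ∧ w3 = u3) ∨ (w2 = u3 ∧ w3 = u2)) := by
  have hr0 : (r : K) ≠ 0 := prime_ne_zero hr hω hωr
  have hω2 : ω ^ 2 ≠ 1 := pow_two_ne hr hr2 hω hωr
  have hζ2 : ζ ^ 2 ≠ 1 := pow_two_ne hr hr2 hζ hζr
  have hω3 : ω ^ 2 ≠ ω := fun h => hω (by
    have : ω * ω = ω * 1 := by rw [← pow_two, h, mul_one]
    exact mul_left_cancel this)
  have hζ3 : ζ ^ 2 ≠ ζ := fun h => hζ (by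
    have : ζ * ζ = ζ * 1 := by rw [← pow_two, h, mul_one]
    exact mul_left_cancel this)
  have hω2r : (ω ^ 2) ^ r = 1 := by rw [← pow_mul, mul_comm, pow_mul, hωr, one_pow]
  have hζ2r : (ζ ^ 2) ^ r = 1 := by rw [← pow_mul, mul_comm, pow_mul, hζr, one_pow]
  have h1' : x • u1 = ((1 : Kˣ) : K) • u1 := by rw [Units.val_one, one_smul, h1]
  have k1' : x • w1 = ((1 : Kˣ) : K) • w1 := by rw [Units.val_one, one_smul, k1]
  have hcan : ∀ a b : V, (r : K) • a = (r : K) • b → a = b := fun a b hab => smul_right_injective V hr0 hab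
  have key : ∀ η : Kˣ, Pr r x η w1 + Pr r x η w2 + Pr r x η w3 = Pr r x η u1 + Pr r x η u2 + Pr r x η u3 := by
    intro η
    rw [← Pr_add, ← Pr_add, ← Pr_add, ← Pr_add, h]
  refine ⟨?_, ?_⟩
  · have e := key 1
    rw [Pr_eig_self hx k1', Pr_eig_ne hx (one_pow _) hζr hζ.symm k2, Pr_eig_ne hx (one_pow _) hζ2r hζ2.symm k3,
      Pr_eig_self hx h1', Pr_eig_ne hx (one_pow _) hωr hω.symm h2, Pr_eig_ne hx (one_pow _) hω2r hω2.symm h3] at e
    simp only [add_zero] at e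
    exact hcan _ _ e
  · have e2 := key ω
    rw [Pr_eig_ne hx hωr (one_pow _) hω k1', Pr_eig_ne hx hωr (one_pow _) hω h1', Pr_eig_self hx h2,
      Pr_eig_ne hx hωr hω2r hω3.symm h3, zero_add, zero_add, add_zero] at e2
    have e3 := key (ω ^ 2)
    rw [Pr_eig_ne hx hω2r (one_pow _) hω2 k1', Pr_eig_ne hx hω2r (one_pow _) hω2 h1', Pr_eig_self hx h3,
      Pr_eig_ne hx hω2r hωr hω3 h2, zero_add, zero_add, zero_add] at e3
    by_cases hc : ζ = ω
    · subst hc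
      left
      rw [Pr_eig_self hx k2, Pr_eig_ne hx hωr hω2r hω3.symm k3, add_zero] at e2
      rw [Pr_eig_self hx k3, Pr_eig_ne hx hω2r hωr hω3 k2, zero_add] at e3
      exact ⟨hcan _ _ e2, hcan _ _ e3⟩
    · right
      have hc' : ω ≠ ζ := fun h => hc h.symm
      rw [Pr_eig_ne hx hωr hζr hc' k2, zero_add] at e2
      have hd : ω = ζ ^ 2 := by
        by_contra hd
        rw [Pr_eig_ne hx hωr hζ2r hd k3] at e2
        rcases smul_eq_zero.1 e2.symm with h4 | h4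
        · exact hr0 h4
        · exact hu2 h4
      rw [hd, Pr_eig_self hx k3] at e2
      have hd2 : ω ^ 2 ≠ ζ ^ 2 := by rw [← hd]; exact hω3
      rw [Pr_eig_ne hx hω2r hζ2r hd2 k3, add_zero] at e3
      have hf : ω ^ 2 = ζ := by
        by_contra hf
        rw [Pr_eig_ne hx hω2r hζr hf k2] at e3
        rcases smul_eq_zero.1 e3.symm with h4 | h4
        · exact hr0 h4
        · exact hu3 h4
      rw [hf, Pr_eig_self hx k2] at e3
      exact ⟨hcan _ _ e3, hcan _ _ e2⟩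

end Gen

section

variable {K V : Type u} [Field K] [Finite K] [AddCommGroup V] [Finite V] [Module K V]
  {A B : Subgroup (GV V)} {r : ℕ}

theorem nontrivial_V (S : SetB K V A B r) : Nontrivial V := by
  have h := S.card
  exact Finite.one_lt_card_iff_nontrivial.1 (by omega)

/-- transport of good elements by `A` -/
theorem good_smul (S : SetB K V A B r) {x : GV V} {v : V} (hg : Good K r B x v) {g : GV V} (hgA : g ∈ A) :
    Good K r B (g * x * g⁻¹) (g • v) := by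
  obtain ⟨hxB, hxr, hns, hv, hxv, hE⟩ := hg
  have hs : Semi K g := S.semi g hgA
  have hs' : Semi K g⁻¹ := S.semi _ (A.inv_mem hgA)
  refine ⟨S.norm g hgA x hxB, ?_, ?_, ?_, ?_, ?_⟩
  · rw [conj_pow, hxr, mul_one, mul_inv_cancel]
  · intro c hc
    obtain ⟨d, hd⟩ := semi_scal_conj hs' c
    apply hns d
    rw [← hd, ← hc]
    group
  · rw [ne_eq, smul_eq_zero_iff_eq]
    exact hv
  · rw [mul_smul, inv_smul_smul, mul_smul, hxv]
  · intro b hb hbe
    obtain ⟨c, hc⟩ := hbe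
    have h1 : g⁻¹ * b * g⁻¹⁻¹ ∈ B := S.norm g⁻¹ (A.inv_mem hgA) b hb
    have h2 : Eig K (g⁻¹ * b * g⁻¹⁻¹) v := by
      obtain ⟨σ, hσ⟩ := hs'
      refine ⟨Units.map (σ : K →* K) c, ?_⟩
      rw [inv_inv, mul_smul, mul_smul, hc, hσ, inv_smul_smul]
      rfl
    obtain ⟨i, d, hd⟩ := hE _ h1 h2
    obtain ⟨d', hd'⟩ := semi_scal_conj hs d
    refine ⟨i, d', ?_⟩
    have h3 : b = g * (g⁻¹ * b * g⁻¹⁻¹) * g⁻¹ := by group
    rw [h3, hd, conj_pow, ← hd']
    group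

/-- a good element not commuting with a given nonscalar element -/
theorem exists_good (S : SetB K V A B r) (hg : ∃ x v, Good K r B x v) {x : GV V} (hx : x ∈ B)
    (hns : ∀ c : Kˣ, x ≠ scal K V c) : ∃ y v, Good K r B y v ∧ x * y ≠ y * x := by
  by_contra hcon
  push Not at hcon
  let T : Set (GV V) := {y | (∃ c : Kˣ, y = scal K V c) ∨ ∃ v, Good K r B y v}
  let N : Subgroup (GV V) := Subgroup.closure T
  have hNB : N ≤ B := by
    rw [Subgroup.closure_le]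
    rintro y (⟨c, rfl⟩ | ⟨v, hv⟩)
    · exact S.heis.scal_mem c
    · exact hv.1
  have hNn : ∀ g ∈ A, ∀ b ∈ N, g * b * g⁻¹ ∈ N := by
    intro g hg b hb
    induction hb using Subgroup.closure_induction with
    | mem y hy =>
      apply Subgroup.subset_closure
      rcases hy with ⟨c, rfl⟩ | ⟨v, hv⟩
      · left
        exact semi_scal_conj (S.semi g hg) c
      · right
        exact ⟨g • v, good_smul S hv hg⟩
    | one => simp
    | mul a b _ _ ha hb =>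
      have : g * (a * b) * g⁻¹ = (g * a * g⁻¹) * (g * b * g⁻¹) := by group
      rw [this]
      exact N.mul_mem ha hb
    | inv a _ ha =>
      have : g * a⁻¹ * g⁻¹ = (g * a * g⁻¹)⁻¹ := by group
      rw [this]
      exact N.inv_mem ha
  rcases S.min N (fun c => Subgroup.subset_closure (Or.inl ⟨c, rfl⟩)) hNB hNn with h | h
  · obtain ⟨y, v, hy⟩ := hg
    obtain ⟨c, hc⟩ := h y (Subgroup.subset_closure (Or.inr ⟨v, hy⟩))
    exact hy.2.2.1 c hc
  · obtain ⟨c, hc⟩ := S.heis.cent x hx (fun b hb => by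
      have hb' : b ∈ N := h hb
      clear hb
      induction hb' using Subgroup.closure_induction with
      | mem y hy =>
        rcases hy with ⟨c, rfl⟩ | ⟨v, hv⟩
        · exact (S.heis.linb hx).scal_comm c
        · exact hcon y v hv
      | one => simp
      | mul a b _ _ ha hb => rw [← mul_assoc, ha, mul_assoc, hb, mul_assoc]
      | inv a _ ha =>
        have h1 : Commute x a := ha
        exact h1.inv_right.eq)
    exact hns c hc

/-- conjugation by a semilinear map of an eigenvector -/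
theorem conj_eig {x k : GV V} (hx : Lin K x) {i i' : ℕ} (hk : k * x * k⁻¹ = x ^ i) (hi : x ^ (i * i') = x)
    {σ : K ≃+* K} (hσ : ∀ (c : K) (v : V), k • c • v = σ c • k • v) {ζ : Kˣ} {u : V} (hu : x • u = (ζ : K) • u) :
    x • k • u = (((Units.map (σ : K →* K) ζ) ^ i' : Kˣ) : K) • k • u := by
  have h1 : (x ^ i) • k • u = σ (ζ : K) • k • u := by
    rw [← hk, mul_smul, mul_smul, inv_smul_smul, hu, hσ]
  have h2 := pow_smul_of_eig (hx.pow i) h1 i'
  rw [← pow_mul, hi] at h2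
  rw [h2]
  congr 1

/-- the key computation -/
theorem key (S : SetB K V A B r) (hr : r ≠ 2) (hs : ∀ h ∈ cl2 A, Semi K h)
    (hn : ∀ h ∈ cl2 A, ∀ b ∈ B, h * b * h⁻¹ ∈ B) {x : GV V} {v : V} (hg : Good K r B x v) {a b : GV V}
    (ha : a ∈ B) (hb : b ∈ B) (har : a ^ r = 1) (hnv : Pr r a (1 : Kˣ) v ≠ 0) (hax : a * x = x * a) {ω : Kˣ}
    (hω : ω ≠ 1) (hxb : CC ω x b) (h3 : r = 3 → ∀ (i : ℕ) (c : Kˣ), a ≠ scal K V c * x ^ i) :
    ∃ w : V, ∀ k ∈ cl2 A, k • v = v → k • w = w → Lin K k ∧ k * x = x * k ∧ k * a = a * k ∧ k * b = b * k := by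
  have hNV : Nontrivial V := nontrivial_V S
  have hrp : r.Prime := S.heis.prime
  obtain ⟨hxB, hxr, hns, hv, hxv, hE⟩ := hg
  have hxL : Lin K x := S.heis.linb hxB
  have haL : Lin K a := S.heis.linb ha
  have hbL : Lin K b := S.heis.linb hb
  have hωr : ω ^ r = 1 := S.heis.cc_pow hxB hb hxb
  have hr0 : (r : K) ≠ 0 := prime_ne_zero hrp hω hωr
  have hωo : orderOf ω = r := by
    rcases (Nat.dvd_prime hrp).1 (orderOf_dvd_of_pow_eq_one hωr) with h2 | h2
    · exact absurd (orderOf_eq_one_iff.1 h2) hω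
    · exact h2
  -- `ω ^ l = 1` implies `x ^ l = 1`
  have hωx : ∀ l : ℕ, ω ^ l = 1 → x ^ l = 1 := by
    intro l hl
    have h1 : r ∣ l := by rw [← hωo]; exact orderOf_dvd_of_pow_eq_one hl
    obtain ⟨m, rfl⟩ := h1
    rw [pow_mul, hxr, one_pow]
  -- eigenvectors of elements fixing `v` up to a scalar
  have hE' : ∀ y ∈ B, ∀ c : Kˣ, y • v = (c : K) • v → ∃ i : ℕ, y = scal K V c * x ^ i := by
    intro y hy c hc
    obtain ⟨i, d, hd⟩ := hE y hy ⟨c, hc⟩
    have h1 := eig_of_lin hxv i hd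
    rw [hc] at h1
    have h2 : c = d := smul_cancel hv h1
    exact ⟨i, h2 ▸ hd⟩
  have hav1 : x • a • v = a • v := by rw [← mul_smul, ← hax, mul_smul, hxv]
  have hxcomm : Commute x a := hax.symm
  set nv : V := Pr r a (1 : Kˣ) v with hnvdef
  have hxnv : ∀ ζ : Kˣ, x • Pr r a ζ v = Pr r a ζ v := by
    intro ζ
    rw [Pr_comm hxL hax.symm, hxv]
  have hanv : a • nv = nv := by
    have := Pr_mem haL har (one_pow r : (1 : Kˣ) ^ r = 1) v
    rw [Units.val_one, one_smul] at this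
    exact this
  obtain ⟨θ, hθ⟩ := IsCyclic.exists_generator (α := Kˣ)
  have hxbv : ∀ u : V, x • u = u → x • b • u = (ω : K) • b • u := by
    intro u hu
    rw [hxb.smul, hu]
  have hxb2 : CC (ω ^ 2) x (b ^ 2) := hxb.pow_right hbL 2
  have hxb2v : ∀ u : V, x • u = u → x • (b ^ 2) • u = ((ω ^ 2 : Kˣ) : K) • (b ^ 2) • u := by
    intro u hu
    rw [hxb2.smul, hu]
  refine ⟨(θ : K) • a • v + b • v + (b ^ 2) • nv, fun k hk hkv hkw => ?_⟩
  obtain ⟨σ, hσ⟩ := hs k hk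
  have hkv' : k⁻¹ • v = v := by rw [inv_smul_eq_iff, hkv]
  -- `k x k⁻¹ = x ^ i`
  obtain ⟨i, hi⟩ : ∃ i : ℕ, k * x * k⁻¹ = x ^ i := by
    obtain ⟨i, hi⟩ := hE' _ (hn k hk x hxB) 1 (by
      rw [mul_smul, mul_smul, hkv', hxv, hkv, Units.val_one, one_smul])
    exact ⟨i, by rw [hi, map_one, one_mul]⟩
  have hri : ¬ r ∣ i := by
    rintro ⟨m, rfl⟩
    rw [pow_mul, hxr, one_pow] at hi
    have h1 : x = 1 := by
      have : x = k⁻¹ * (k * x * k⁻¹) * k := by group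
      rw [this, hi]; group
    exact hns 1 (by rw [map_one]; exact h1)
  obtain ⟨i', hi'⟩ : ∃ i' : ℕ, i * i' ≡ 1 [MOD r] := by
    obtain ⟨m, -, hm⟩ := Nat.exists_mul_mod_eq_one_of_coprime
      ((Nat.Prime.coprime_iff_not_dvd hrp).2 hri).symm hrp.one_lt
    refine ⟨m, ?_⟩
    rw [Nat.ModEq, hm, Nat.mod_eq_of_lt hrp.one_lt]
  have hxi : x ^ (i * i') = x := by
    have h1 := pow_eq_pow_of_modEq hi' hxr
    rwa [pow_one] at h1
  -- the components
  let τ : Kˣ := (Units.map (σ : K →* K) ω) ^ i'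
  have hτr : τ ^ r = 1 := by
    change ((Units.map (σ : K →* K) ω) ^ i') ^ r = 1
    rw [← pow_mul, mul_comm, pow_mul, ← map_pow, hωr, map_one, one_pow]
  have hτ1 : τ ≠ 1 := by
    intro h
    have h1 : (Units.map (σ : K →* K) ω) ^ (i * i') = 1 := by rw [mul_comm, pow_mul]; exact (congrArg (· ^ i) h).trans (one_pow _)
    have h2 : (Units.map (σ : K →* K) ω) ^ r = 1 := by rw [← map_pow, hωr, map_one]
    have h4 := pow_eq_pow_of_modEq hi' h2
    rw [h1, pow_one] at h4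
    apply hω
    have h5 : Function.Injective (Units.map (σ : K →* K)) := Units.map_injective σ.injective
    apply h5
    rw [← h4, map_one]
  have c1 : x • k • ((θ : K) • a • v) = k • ((θ : K) • a • v) := by
    have h1 : x • ((θ : K) • a • v) = ((1 : Kˣ) : K) • ((θ : K) • a • v) := by
      rw [hxL, hav1, Units.val_one, one_smul]
    have h2 := conj_eig hxL hi hxi hσ h1
    rw [map_one, one_pow, Units.val_one, one_smul] at h2
    exact h2
  have c2 : x • k • b • v = (τ : K) • k • b • v := conj_eig hxL hi hxi hσ (hxbv v hxv)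
  have c3 : x • k • (b ^ 2) • nv = ((τ ^ 2 : Kˣ) : K) • k • (b ^ 2) • nv := by
    have h1 := conj_eig hxL hi hxi hσ (hxb2v nv (hxnv 1))
    rw [h1]
    congr 2
    change _ = ((Units.map (σ : K →* K) ω) ^ i') ^ 2
    rw [map_pow, ← pow_mul, ← pow_mul, mul_comm]
  have hbv : b • v ≠ 0 := by rw [ne_eq, smul_eq_zero_iff_eq]; exact hv
  have hbnv : (b ^ 2) • nv ≠ 0 := by rw [ne_eq, smul_eq_zero_iff_eq]; exact hnv
  have hkw' : k • ((θ : K) • a • v) + k • b • v + k • (b ^ 2) • nv = (θ : K) • a • v + b • v + (b ^ 2) • nv := by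
    rw [← smul_add, ← smul_add]
    exact hkw
  obtain ⟨e1, e23⟩ := components hrp hr hxL hω hωr hτ1 hτr (by rw [hxL, hav1]) (hxbv v hxv)
    (hxb2v nv (hxnv 1)) c1 c2 c3 hbv hbnv hkw'
  -- `a'`
  have hconj : ∀ y : GV V, (k * y * k⁻¹) • v = k • y • v := by
    intro y
    rw [mul_smul, mul_smul, hkv']
  have ha'B := hn k hk a ha
  have hb'B := hn k hk b hb
  obtain ⟨c, hcθ, m, ham⟩ : ∃ c : Kˣ, (c : K) * σ (θ : K) = θ ∧ ∃ m : ℕ, k * a * k⁻¹ = scal K V c * (a * x ^ m) := by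
    have h1 : σ (θ : K) • (k * a * k⁻¹) • v = (θ : K) • a • v := by
      rw [hconj, ← hσ]
      exact e1
    let sθ : Kˣ := Units.map (σ : K →* K) θ
    have hsθ : (sθ : K) = σ (θ : K) := rfl
    have h2 : (k * a * k⁻¹) • v = ((sθ⁻¹ * θ : Kˣ) : K) • a • v := by
      have h3 : (sθ : K) • (k * a * k⁻¹) • v = (sθ : K) • ((sθ⁻¹ * θ : Kˣ) : K) • a • v := by
        rw [hsθ, h1, ← hsθ, smul_smul, ← Units.val_mul, mul_inv_cancel_left]
      exact smul_right_injective V sθ.ne_zero h3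
    have h4 : (a⁻¹ * (k * a * k⁻¹)) • v = ((sθ⁻¹ * θ : Kˣ) : K) • v := by
      rw [mul_smul, h2, haL.inv, inv_smul_smul]
    obtain ⟨m, hm⟩ := hE' _ (B.mul_mem (B.inv_mem ha) ha'B) _ h4
    refine ⟨sθ⁻¹ * θ, ?_, m, ?_⟩
    · rw [← hsθ, ← Units.val_mul, mul_comm, mul_inv_cancel_left]
    · have h5 : k * a * k⁻¹ = a * (a⁻¹ * (k * a * k⁻¹)) := by group
      rw [h5, hm, ← mul_assoc, haL.scal_comm, mul_assoc]
  have hxm : ∀ j : ℕ, x ^ j • v = v := fun j => pow_fix hxv j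
  have hamj : ∀ j : ℕ, (k * a * k⁻¹) ^ j • v = ((c ^ j : Kˣ) : K) • (a ^ j) • v := by
    intro j
    have h1 : Commute a (x ^ m) := (hxcomm.symm).pow_right m
    have h2 : Commute (scal K V c) (a * x ^ m) :=
      ((haL.mul (hxL.pow m)).scal_comm c).symm
    rw [ham, h2.mul_pow, h1.mul_pow, ← map_pow, mul_smul, mul_smul, ← pow_mul, hxm, scal_smul]
  have hcr : c ^ r = 1 := by
    have h1 := hamj r
    rw [har, one_smul, conj_pow, har, mul_one, mul_inv_cancel, one_smul] at h1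
    have h2 : ((1 : Kˣ) : K) • v = ((c ^ r : Kˣ) : K) • v := by rw [← h1, Units.val_one, one_smul]
    exact (smul_cancel hv h2).symm
  have hknv : k • nv = Pr r a c⁻¹ v := by
    rw [hnvdef]
    unfold Pr
    rw [Finset.smul_sum]
    refine Finset.sum_congr rfl fun j _ => ?_
    rw [inv_inv, ← hamj, inv_one, one_pow, Units.val_one, one_smul, conj_pow, hconj]
  rcases e23 with ⟨e2, e3⟩ | ⟨e2, e3⟩
  · -- case 1
    obtain ⟨l, hl⟩ : ∃ l : ℕ, k * b * k⁻¹ = b * x ^ l := by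
      have h1 : (b⁻¹ * (k * b * k⁻¹)) • v = ((1 : Kˣ) : K) • v := by
        rw [mul_smul, hconj, e2, inv_smul_smul, Units.val_one, one_smul]
      obtain ⟨l, hl⟩ := hE' _ (B.mul_mem (B.inv_mem hb) hb'B) _ h1
      refine ⟨l, ?_⟩
      have h2 : k * b * k⁻¹ = b * (b⁻¹ * (k * b * k⁻¹)) := by group
      rw [h2, hl, map_one, one_mul]
    have hcx : CC (ω ^ l) (x ^ l) b := hxb.pow_left hxL l
    -- `ω ^ l n_c v = n v`
    have f1 : ((ω ^ l : Kˣ) : K) • Pr r a c⁻¹ v = nv := by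
      have h1 : k • (b ^ 2) • nv = (k * b * k⁻¹) • (k * b * k⁻¹) • Pr r a c⁻¹ v := by
        rw [← hknv, ← mul_smul, ← mul_smul, ← mul_smul]
        congr 1
        rw [pow_two]; group
      have h2 : ∀ u : V, x • u = u → (b * x ^ l) • u = b • u := by
        intro u hu
        rw [mul_smul, pow_fix hu]
      rw [h1, hl, h2 _ (hxnv _), mul_smul, hcx.smul, pow_fix (hxnv _), hbL, ← mul_smul, ← pow_two, ← (hbL.pow 2)] at e3
      exact (smul_left_cancel_iff (b ^ 2)).1 e3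
    have f2 : c⁻¹ = 1 := by
      have h1 : a • ((ω ^ l : Kˣ) : K) • Pr r a c⁻¹ v = a • nv := by rw [f1]
      rw [haL, Pr_mem haL har (by rw [inv_pow, hcr, inv_one]) v, hanv, smul_comm, f1] at h1
      have h2 : ((c⁻¹ : Kˣ) : K) • nv = ((1 : Kˣ) : K) • nv := by rw [h1, Units.val_one, one_smul]
      exact smul_cancel hnv h2
    have f3 : c = 1 := inv_eq_one.1 f2
    have f4 : ω ^ l = 1 := by
      rw [f2] at f1
      have h2 : ((ω ^ l : Kˣ) : K) • nv = ((1 : Kˣ) : K) • nv := by rw [Units.val_one, one_smul]; exact f1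
      exact smul_cancel hnv h2
    have f5 : k * b * k⁻¹ = b := by rw [hl, hωx l f4, mul_one]
    have f6 : k * b = b * k := by
      have : k * b = (k * b * k⁻¹) * k := by group
      rw [this, f5]
    -- `k` is linear
    have hσθ : σ (θ : K) = θ := by rw [f3, Units.val_one, one_mul] at hcθ; exact hcθ
    have hσ1 : ∀ d : K, σ d = d := by
      intro d
      by_cases hd : d = 0
      · rw [hd, map_zero]
      · have h1 : Units.map (σ : K →* K) θ = θ := Units.ext hσθ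
        obtain ⟨j, hj⟩ := (hθ (Units.mk0 d hd))
        have h2 : Units.map (σ : K →* K) (Units.mk0 d hd) = Units.mk0 d hd := by
          rw [← hj]
          simp only [map_zpow, h1]
        exact congrArg Units.val h2
    have hkL : Lin K k := fun d u => by rw [hσ, hσ1]
    -- commutation with `x`
    have g1 : k * x = x * k := by
      have h1 : CC ω (x ^ i) b := by
        have h2 : (k * x * k⁻¹) * (k * b * k⁻¹) = scal K V ω * ((k * b * k⁻¹) * (k * x * k⁻¹)) := by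
          have h3 : (k * x * k⁻¹) * (k * b * k⁻¹) = k * (x * b) * k⁻¹ := by group
          have h4 : (k * b * k⁻¹) * (k * x * k⁻¹) = k * (b * x) * k⁻¹ := by group
          rw [h3, h4, hxb, ← mul_assoc, hkL.scal_comm]
          simp only [mul_assoc]
        rw [hi, f5] at h2
        exact h2
      have h2 : ω = ω ^ i := h1.unique (hxb.pow_left hxL i)
      have h3 : x ^ i = x := by
        have h4 : ω ^ 1 = ω ^ i := by rw [pow_one]; exact h2
        rw [pow_eq_pow_iff_modEq, hωo] at h4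
        have h5 := pow_eq_pow_of_modEq h4 hxr
        rw [pow_one] at h5
        exact h5.symm
      have h4 : k * x = (k * x * k⁻¹) * k := by group
      rw [h4, hi, h3]
    refine ⟨hkL, g1, ?_, f6⟩
    obtain ⟨z, hz⟩ := S.heis.cc ha hb
    have h1 : CC z (a * x ^ m) b := by
      have h2 : (k * a * k⁻¹) * (k * b * k⁻¹) = scal K V z * ((k * b * k⁻¹) * (k * a * k⁻¹)) := by
        have h3 : (k * a * k⁻¹) * (k * b * k⁻¹) = k * (a * b) * k⁻¹ := by group
        have h4 : (k * b * k⁻¹) * (k * a * k⁻¹) = k * (b * a) * k⁻¹ := by group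
        rw [h3, h4, hz, ← mul_assoc, hkL.scal_comm]
        simp only [mul_assoc]
      rw [f5, ham, f3, map_one, one_mul] at h2
      exact h2
    have h2 : z = z * ω ^ m := h1.unique (CC.mul_left haL hz (hxb.pow_left hxL m))
    have h3 : ω ^ m = 1 := by
      have : z * 1 = z * ω ^ m := by rw [mul_one]; exact h2
      exact (mul_left_cancel this).symm
    have h4 : k * a = (k * a * k⁻¹) * k := by group
    rw [h4, ham, f3, map_one, one_mul, hωx m h3, mul_one]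
  · -- case 2
    exfalso
    have hb'v : (k * b * k⁻¹) • v = (b ^ 2) • nv := by rw [hconj, e2]
    let e : GV V := (b ^ 2)⁻¹ * (k * b * k⁻¹)
    have heB : e ∈ B := B.mul_mem (B.inv_mem (B.pow_mem hb 2)) hb'B
    have hev : e • v = nv := by
      change ((b ^ 2)⁻¹ * (k * b * k⁻¹)) • v = nv
      rw [mul_smul, hb'v, inv_smul_smul]
    obtain ⟨d, hd⟩ := S.heis.cc ha heB
    obtain ⟨m', hm'⟩ : ∃ m' : ℕ, e⁻¹ * a * e = x ^ m' := by
      have h1 : (e⁻¹ * a * e) • v = ((1 : Kˣ) : K) • v := by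
        rw [mul_smul, mul_smul, hev, hanv, ← hev, inv_smul_smul, Units.val_one, one_smul]
      obtain ⟨m', hm'⟩ := hE' _ (B.mul_mem (B.mul_mem (B.inv_mem heB) ha) heB) _ h1
      exact ⟨m', by rw [hm', map_one, one_mul]⟩
    have heL : Lin K e := S.heis.linb heB
    have ham' : a = scal K V d⁻¹ * x ^ m' := by
      have h1 : e⁻¹ * a * e = scal K V d * a := by
        have h2 : e⁻¹ * a * e = e⁻¹ * (a * e) := by group
        rw [h2, hd, ← mul_assoc, heL.inv.scal_comm]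
        group
      rw [← hm', h1, ← mul_assoc, ← map_mul, inv_mul_cancel, map_one, one_mul]
    have hr3 : r ≠ 3 := fun h => h3 h m' d⁻¹ ham'
    have hav : a • v = ((d⁻¹ : Kˣ) : K) • v := eig_of_lin hxv m' ham'
    have hdr : (d⁻¹) ^ r = 1 := by
      have h1 := pow_smul_of_eig haL hav r
      rw [har, one_smul, ← Units.val_pow_eq_pow_val] at h1
      have h2 : ((1 : Kˣ) : K) • v = (((d⁻¹) ^ r : Kˣ) : K) • v := by rw [← h1, Units.val_one, one_smul]
      exact (smul_cancel hv h2).symm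
    have hd1 : d⁻¹ = 1 := by
      by_contra hne
      exact hnv (Pr_eig_ne haL (one_pow r) hdr (fun h => hne h.symm) hav)
    have hnvr : nv = (r : K) • v := by
      rw [hd1] at hav
      exact Pr_eig_self haL hav
    let ρ : Kˣ := Units.mk0 (r : K) hr0
    obtain ⟨s, hs'⟩ : ∃ s : ℕ, e = scal K V ρ * x ^ s := hE' e heB ρ (by rw [hev, hnvr]; rfl)
    have hb' : k * b * k⁻¹ = (b ^ 2) * (scal K V ρ * x ^ s) := by
      rw [← hs']
      change k * b * k⁻¹ = b ^ 2 * ((b ^ 2)⁻¹ * (k * b * k⁻¹))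
      group
    have hcx : CC ((ω ^ 2) ^ s) (x ^ s) (b ^ 2) := hxb2.pow_left hxL s
    -- `b v = κ b ^ 4 v`
    have g1 : b • v = ((ρ * ρ * ρ * (ω ^ 2) ^ s : Kˣ) : K) • (b ^ 2) • (b ^ 2) • v := by
      have h1 : k • (b ^ 2) • nv = (k * b * k⁻¹) • (k * b * k⁻¹) • k • nv := by
        rw [← mul_smul, ← mul_smul, ← mul_smul]
        congr 1
        rw [pow_two]; group
      have h2 : k • nv = (ρ : K) • v := by
        rw [hnvr, hσ, map_natCast, hkv]
        rfl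
      have hb'L : Lin K (k * b * k⁻¹) := S.heis.linb hb'B
      have h5 : (k * b * k⁻¹) • v = (ρ : K) • (b ^ 2) • v := by
        rw [hb'v, hnvr, (hbL.pow 2)]
        rfl
      have h6 : (k * b * k⁻¹) • (b ^ 2) • v = ((ρ * (ω ^ 2) ^ s : Kˣ) : K) • (b ^ 2) • (b ^ 2) • v := by
        rw [hb', mul_smul, mul_smul, hcx.smul, hxm, scal_smul, (hbL.pow 2), (hbL.pow 2), smul_smul, Units.val_mul]
      rw [← e3, h1, h2, hb'L, h5, hb'L, hb'L, h6, smul_smul, smul_smul, ← Units.val_mul, ← Units.val_mul]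
      congr 2
      simp only [mul_assoc]
    have g2 : (b ^ 3) • v = (((ρ * ρ * ρ * (ω ^ 2) ^ s)⁻¹ : Kˣ) : K) • v := by
      have h1 : b • v = b • (((ρ * ρ * ρ * (ω ^ 2) ^ s : Kˣ) : K) • (b ^ 3) • v) := by
        rw [hbL, ← mul_smul b, ← pow_succ', g1, ← mul_smul (b ^ 2), ← pow_add]
      have h2 := (smul_left_cancel_iff b).1 h1
      generalize ρ * ρ * ρ * (ω ^ 2) ^ s = κ at h2 ⊢
      have h4 : ((κ⁻¹ : Kˣ) : K) • v = ((κ⁻¹ : Kˣ) : K) • (κ : K) • (b ^ 3) • v := by rw [← h2]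
      rw [smul_smul, ← Units.val_mul, inv_mul_cancel, Units.val_one, one_smul] at h4
      exact h4.symm
    obtain ⟨t, ht⟩ := hE' _ (B.pow_mem hb 3) _ g2
    have g3 : CC (1 : Kˣ) x (b ^ 3) := by
      rw [cc_one_iff, ht]
      exact (Commute.mul_right (hxL.scal_commute _) ((Commute.refl x).pow_right t)).eq
    have g4 : ω ^ 3 = 1 := (hxb.pow_right hbL 3).unique g3
    have g5 : r ∣ 3 := by rw [← hωo]; exact orderOf_dvd_of_pow_eq_one g4
    rcases (Nat.dvd_prime Nat.prime_three).1 g5 with h | h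
    · exact hrp.one_lt.ne' h
    · exact hr3 h

/-- normalisation of `a` -/
theorem key' (S : SetB K V A B r) (hr : r ≠ 2) (hs : ∀ h ∈ cl2 A, Semi K h)
    (hn : ∀ h ∈ cl2 A, ∀ b ∈ B, h * b * h⁻¹ ∈ B)
    (hpow : ∀ b ∈ B, ∃ c : Kˣ, b ^ r = scal K V (c ^ r)) {x : GV V} {v : V} (hg : Good K r B x v) {a b : GV V}
    (ha : a ∈ B) (hb : b ∈ B) (hax : a * x = x * a) {ω : Kˣ}
    (hω : ω ≠ 1) (hxb : CC ω x b) (h3 : r = 3 → ∀ (i : ℕ) (c : Kˣ), a ≠ scal K V c * x ^ i) :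
    ∃ w : V, ∀ k ∈ cl2 A, k • v = v → k • w = w → Lin K k ∧ k * x = x * k ∧ k * a = a * k ∧ k * b = b * k := by
  have hNV : Nontrivial V := nontrivial_V S
  have hrp : r.Prime := S.heis.prime
  have haL : Lin K a := S.heis.linb ha
  have hxL : Lin K x := S.heis.linb hg.1
  have hωr : ω ^ r = 1 := S.heis.cc_pow hg.1 hb hxb
  have hr0 : (r : K) ≠ 0 := prime_ne_zero hrp hω hωr
  obtain ⟨c, hc⟩ := hpow a ha
  let a₁ : GV V := scal K V c⁻¹ * a
  have ha₁B : a₁ ∈ B := B.mul_mem (S.heis.scal_mem _) ha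
  have ha₁r : a₁ ^ r = 1 := by
    change (scal K V c⁻¹ * a) ^ r = 1
    rw [(haL.scal_commute c⁻¹).symm.mul_pow, hc, ← map_pow, ← map_mul, inv_pow, inv_mul_cancel, map_one]
  obtain ⟨j, -, hj⟩ := exists_Pr_ne (primitive hrp hω hωr) hrp.one_lt hr0 a₁ hg.2.2.2.1
  let ζ : Kˣ := ω ^ j
  have hζr : ζ ^ r = 1 := by
    change (ω ^ j) ^ r = 1
    rw [← pow_mul, mul_comm, pow_mul, hωr, one_pow]
  let a₂ : GV V := scal K V ζ⁻¹ * a₁
  have ha₁L : Lin K a₁ := S.heis.linb ha₁B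
  have ha₂pow : ∀ n : ℕ, a₂ ^ n = scal K V (ζ⁻¹ ^ n) * a₁ ^ n := by
    intro n
    change (scal K V ζ⁻¹ * a₁) ^ n = _
    rw [(ha₁L.scal_commute ζ⁻¹).symm.mul_pow, ← map_pow]
  have ha₂B : a₂ ∈ B := B.mul_mem (S.heis.scal_mem _) ha₁B
  have ha₂r : a₂ ^ r = 1 := by
    rw [ha₂pow, ha₁r, mul_one, inv_pow, hζr, inv_one, map_one]
  have ha₂a : a₂ = scal K V (ζ⁻¹ * c⁻¹) * a := by
    change scal K V ζ⁻¹ * (scal K V c⁻¹ * a) = _
    rw [map_mul, mul_assoc]
  have hPr : Pr r a₂ (1 : Kˣ) v = Pr r a₁ ζ v := by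
    unfold Pr
    refine Finset.sum_congr rfl fun n _ => ?_
    rw [ha₂pow, mul_smul, scal_smul, inv_one, one_pow, Units.val_one, one_smul]
  have hax₂ : a₂ * x = x * a₂ := by
    rw [ha₂a, mul_assoc, hax, ← mul_assoc, ← hxL.scal_comm, mul_assoc]
  obtain ⟨w, hw⟩ := key S hr hs hn hg ha₂B hb ha₂r (by rw [hPr]; exact hj) hax₂ hω hxb (by
    intro h i d hd
    apply h3 h i ((ζ⁻¹ * c⁻¹)⁻¹ * d)
    rw [map_mul, mul_assoc, ← hd, ha₂a, ← mul_assoc, ← map_mul, inv_mul_cancel, map_one, one_mul])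
  refine ⟨w, fun k hk hkv hkw => ?_⟩
  obtain ⟨h1, h2, h3', h4⟩ := hw k hk hkv hkw
  refine ⟨h1, h2, ?_, h4⟩
  have h5 : a = scal K V (ζ⁻¹ * c⁻¹)⁻¹ * a₂ := by
    rw [ha₂a, ← mul_assoc, ← map_mul, inv_mul_cancel, map_one, one_mul]
  have c1 : Commute k a₂ := h3'
  rw [h5]
  exact (Commute.mul_right (h1.scal_commute _) c1).eq

/-- agreement, `x` not a scalar -/
theorem agree (S : SetB K V A B r) (hr : r ≠ 2) (hs : ∀ h ∈ cl2 A, Semi K h)
    (hn : ∀ h ∈ cl2 A, ∀ b ∈ B, h * b * h⁻¹ ∈ B)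
    (hpow : ∀ b ∈ B, ∃ c : Kˣ, b ^ r = scal K V (c ^ r))
    (hg : ∃ x v, Good K r B x v)
    (h9 : r = 3 → ∀ x v, Good K r B x v →
      ∃ a ∈ B, a * x = x * a ∧ ∀ (i : ℕ) (c : Kˣ), a ≠ scal K V c * x ^ i)
    {h : GV V} (hh : h ∈ cl2 A) {x y : GV V} (hx : x ∈ B) (hy : y ∈ B) (hns : ∀ c : Kˣ, x ≠ scal K V c) :
    ∃ g ∈ A, g * x * g⁻¹ = h * x * h⁻¹ ∧ g * y * g⁻¹ = h * y * h⁻¹ := by
  have hNV : Nontrivial V := nontrivial_V S
  obtain ⟨x₁, v, hgood, hne⟩ := exists_good S hg hx hns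
  have hx₁L : Lin K x₁ := S.heis.linb hgood.1
  have hxL : Lin K x := S.heis.linb hx
  obtain ⟨ω, hω⟩ := S.heis.cc hgood.1 hx
  have hω1 : ω ≠ 1 := by
    rintro rfl
    exact hne (cc_one_iff.1 hω).symm
  have hωr := S.heis.cc_pow hgood.1 hx hω
  obtain ⟨η, hη⟩ := S.heis.cc hgood.1 hy
  have hηr := S.heis.cc_pow hgood.1 hy hη
  obtain ⟨j, -, hj⟩ := exists_pow_eq S.heis.prime hω1 hωr hηr
  -- `a = y x ^ (-j)`
  let a : GV V := y * (x ^ j)⁻¹
  have haB : a ∈ B := B.mul_mem hy (B.inv_mem (B.pow_mem hx j))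
  have hya : y = a * x ^ j := by
    change y = y * (x ^ j)⁻¹ * x ^ j
    rw [inv_mul_cancel_right]
  have hax : a * x₁ = x₁ * a := by
    obtain ⟨ξ, hξ⟩ := S.heis.cc hgood.1 haB
    have h1 : CC (ξ * ω ^ j) x₁ (a * x ^ j) := CC.mul_right (S.heis.linb haB) hξ (hω.pow_right hxL j)
    rw [← hya] at h1
    have h2 := h1.unique hη
    rw [← hj] at h2
    have h3 : ξ = 1 := by
      have : ξ * ω ^ j = 1 * ω ^ j := by rw [one_mul]; exact h2
      exact mul_right_cancel this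
    rw [h3] at hξ
    exact (cc_one_iff.1 hξ).symm
  -- it suffices that `k = g⁻¹ h` commutes with `x` and `a`
  have hfin : ∀ w : V, (∀ k ∈ cl2 A, k • v = v → k • w = w → k * x = x * k ∧ k * a = a * k) →
      ∃ g ∈ A, g * x * g⁻¹ = h * x * h⁻¹ ∧ g * y * g⁻¹ = h * y * h⁻¹ := by
    intro w hw
    obtain ⟨g, hgA, hgv, hgw⟩ := hh v w
    have hk : g⁻¹ * h ∈ cl2 A := (cl2 A).mul_mem (le_cl2 A (A.inv_mem hgA)) hh
    obtain ⟨h1, h2⟩ := hw (g⁻¹ * h) hk (by rw [mul_smul, ← hgv, inv_smul_smul])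
      (by rw [mul_smul, ← hgw, inv_smul_smul])
    have h3 : (g⁻¹ * h) * y = y * (g⁻¹ * h) := by
      have c1 : Commute (g⁻¹ * h) x := h1
      have c2 : Commute (g⁻¹ * h) a := h2
      rw [hya]
      exact (c2.mul_right (c1.pow_right j)).eq
    have h4 : ∀ z : GV V, (g⁻¹ * h) * z = z * (g⁻¹ * h) → g * z * g⁻¹ = h * z * h⁻¹ := by
      intro z hz
      have : h * z * h⁻¹ = g * ((g⁻¹ * h) * z) * h⁻¹ := by group
      rw [this, hz]
      group
    exact ⟨g, hgA, h4 x h1, h4 y h3⟩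
  by_cases hcase : r = 3 ∧ ∃ (i : ℕ) (c : Kˣ), a = scal K V c * x₁ ^ i
  · obtain ⟨h3, i, c, hic⟩ := hcase
    obtain ⟨a', ha'B, ha'x, ha'n⟩ := h9 h3 x₁ v hgood
    obtain ⟨w, hw⟩ := key' S hr hs hn hpow hgood ha'B hx ha'x hω1 hω (fun _ => ha'n)
    refine hfin w fun k hk hkv hkw => ?_
    obtain ⟨h1, h2, -, h4⟩ := hw k hk hkv hkw
    refine ⟨h4, ?_⟩
    rw [hic]
    have c1 : Commute k x₁ := h2
    exact (Commute.mul_right (h1.scal_commute c) (c1.pow_right i)).eq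
  · obtain ⟨w, hw⟩ := key' S hr hs hn hpow hgood haB hx hax hω1 hω (fun h3 i c hic => hcase ⟨h3, i, c, hic⟩)
    refine hfin w fun k hk hkv hkw => ?_
    obtain ⟨-, -, h3, h4⟩ := hw k hk hkv hkw
    exact ⟨h4, h3⟩

theorem EncOdd.main (S : SetB K V A B r) (hr : r ≠ 2) (hs : ∀ h ∈ cl2 A, Semi K h)
    (hn : ∀ h ∈ cl2 A, ∀ b ∈ B, h * b * h⁻¹ ∈ B)
    (hpow : ∀ b ∈ B, ∃ c : Kˣ, b ^ r = scal K V (c ^ r))
    (hg : ∃ x v, Good K r B x v)
    (h9 : r = 3 → ∀ x v, Good K r B x v →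
      ∃ a ∈ B, a * x = x * a ∧ ∀ (i : ℕ) (c : Kˣ), a ≠ scal K V c * x ^ i) :
    PairAgree K A B := by
  intro h hh x hx y hy
  have hone : ∀ z : GV V, ∃ c : Kˣ, z = scal K V c * z := fun z => ⟨1, by rw [map_one, one_mul]⟩
  have hsc : ∀ g ∈ A, ∀ c : Kˣ, ∃ d : Kˣ, g * scal K V c * g⁻¹ = scal K V d * (h * scal K V c * h⁻¹) := by
    intro g hg c
    obtain ⟨d, hd⟩ := semi_scal_conj (S.semi g hg) c
    obtain ⟨d', hd'⟩ := semi_scal_conj (hs h hh) c
    exact ⟨d * d'⁻¹, by rw [hd, hd', ← map_mul, inv_mul_cancel_right]⟩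
  by_cases hxs : ∃ c : Kˣ, x = scal K V c
  · by_cases hys : ∃ c : Kˣ, y = scal K V c
    · obtain ⟨c, rfl⟩ := hxs
      obtain ⟨d, rfl⟩ := hys
      exact ⟨1, A.one_mem, hsc 1 A.one_mem c, hsc 1 A.one_mem d⟩
    · push Not at hys
      obtain ⟨g, hgA, h1, -⟩ := agree S hr hs hn hpow hg h9 hh hy hx hys
      obtain ⟨c, rfl⟩ := hxs
      refine ⟨g, hgA, hsc g hgA c, ?_⟩
      rw [h1]
      exact hone _
  · push Not at hxs
    obtain ⟨g, hgA, h1, h2⟩ := agree S hr hs hn hpow hg h9 hh hx hy hxs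
    refine ⟨g, hgA, ?_, ?_⟩
    · rw [h1]; exact hone _
    · rw [h2]; exact hone _

end

end Cfsg.Agent.H604.TcEncOdd
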